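import Cfsg.Agent.SylowRatio.Main

/-! Fixed points and orbits of a Sylow subgroup in actions without global fixed points. -/

set_option autoImplicit false

namespace SylowRatio
open scoped Pointwise Classical

variable {G X : Type*} [Group G] [Finite G] [MulAction G X] [Finite X] {p : ℕ} [Fact p.Prime]

theorem fixed_bound {M : Subgroup G} (hM : Full p M) {P : Sylow p G} (hP : P ∈ syl p M)
    (hmove : ∀ x : X, ¬ M ≤ MulAction.stabilizer G x) :
    (2 * p - 1) * Nat.card {x : X // (P : Subgroup G) ≤ MulAction.stabilizer G x} ≤
      (p - 1) * Nat.card X := by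
  have : Fintype X := Fintype.ofFinite X
  have hp := (Fact.out : p.Prime).two_le
  rw [Nat.card_eq_fintype_card, Fintype.card_subtype, Nat.card_eq_fintype_card]
  have h1 := Finset.sum_card_bipartiteAbove_eq_sum_card_bipartiteBelow
    (r := fun (x : X) (S : Sylow p G) => (S : Subgroup G) ≤ MulAction.stabilizer G x)
    (s := (Finset.univ : Finset X)) (t := syl p M)
  simp only [Finset.bipartiteAbove, Finset.bipartiteBelow] at h1
  have hB : ∀ S ∈ syl p M,
      ((Finset.univ : Finset X).filter fun x => (S : Subgroup G) ≤ MulAction.stabilizer G x).card =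
      ((Finset.univ : Finset X).filter fun x => (P : Subgroup G) ≤ MulAction.stabilizer G x).card := by
    intro S hS
    obtain ⟨g, _, rfl⟩ := exists_conj hP hS
    have : ((Finset.univ : Finset X).filter fun x =>
          ((g • P : Sylow p G) : Subgroup G) ≤ MulAction.stabilizer G x) =
        ((Finset.univ : Finset X).filter fun x =>
          (P : Subgroup G) ≤ MulAction.stabilizer G x).image (g • ·) := by
      ext x
      simp only [Finset.mem_filter, Finset.mem_univ, true_and, Finset.mem_image]
      constructor
      · intro h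
        refine ⟨g⁻¹ • x, fun r hr => ?_, smul_inv_smul g x⟩
        have hm : g * r * g⁻¹ ∈ ((g • P : Sylow p G) : Subgroup G) := by
          rw [Sylow.coe_subgroup_smul, Subgroup.mem_pointwise_smul_iff_inv_smul_mem]
          simpa [mul_assoc] using hr
        have h3 := h hm
        rw [MulAction.mem_stabilizer_iff] at h3 ⊢
        rw [mul_smul, mul_smul] at h3
        exact eq_inv_smul_iff.mpr h3
      · rintro ⟨y, hy, rfl⟩ r hr
        rw [Sylow.coe_subgroup_smul, Subgroup.mem_pointwise_smul_iff_inv_smul_mem] at hr
        have hr' : g⁻¹ * r * g ∈ (P : Subgroup G) := by simpa [mul_assoc] using hr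
        have h3 := hy hr'
        rw [MulAction.mem_stabilizer_iff, mul_smul, mul_smul] at h3
        rw [MulAction.mem_stabilizer_iff]
        exact inv_smul_eq_iff.mp h3
    rw [this, Finset.card_image_of_injective _ (MulAction.injective g)]
  rw [Finset.sum_congr rfl hB] at h1
  simp only [Finset.sum_const, smul_eq_mul] at h1
  have hA : ∀ x ∈ (Finset.univ : Finset X),
      (2 * p - 1) * ((syl p M).filter fun S : Sylow p G =>
        (S : Subgroup G) ≤ MulAction.stabilizer G x).card ≤ (p - 1) * (syl p M).card := by
    intro x _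
    have e : ((syl p M).filter fun S : Sylow p G => (S : Subgroup G) ≤ MulAction.stabilizer G x) =
        syl p (M ⊓ MulAction.stabilizer G x) := by
      ext S; simp [mem_syl]
    rw [e]
    rcases (syl p (M ⊓ MulAction.stabilizer G x)).eq_empty_or_nonempty with he | he
    · rw [he]; simp
    have hlt : core p (M ⊓ MulAction.stabilizer G x) < M := by
      refine lt_of_le_of_ne ((core_le _).trans inf_le_left) fun h => hmove x ?_
      rw [← h]; exact (core_le _).trans inf_le_right
    have := bound M hM _ (full_core he) hlt
    rw [syl_core] at this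
    zify [show 1 ≤ 2 * p by omega, show 1 ≤ p by omega]
    exact this
  have h2 := Finset.sum_le_sum hA
  rw [← Finset.mul_sum, Finset.sum_const, smul_eq_mul, h1, Finset.card_univ] at h2
  have hpos : 0 < (syl p M).card := Finset.card_pos.mpr hM.1
  refine Nat.le_of_mul_le_mul_left ?_ hpos
  linarith

theorem orbits_le {P : Subgroup G} (hP : IsPGroup p P) :
    p * Nat.card (MulAction.orbitRel.Quotient ↥P X) ≤
      Nat.card X + (p - 1) * Nat.card {x : X // P ≤ MulAction.stabilizer G x} := by
  have : Fintype X := Fintype.ofFinite X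
  set Q := MulAction.orbitRel.Quotient ↥P X
  have : Fintype Q := Fintype.ofFinite Q
  have hp := (Fact.out : p.Prime)
  have hn : Nat.card X = ∑ q : Q, Nat.card ↥(MulAction.orbit ↥P q.out) := by
    rw [Nat.card_congr (MulAction.selfEquivSigmaOrbits ↥P X), Nat.card_sigma]
  have hpt : ∀ q : Q, p ≤ Nat.card ↥(MulAction.orbit ↥P q.out) +
      (p - 1) * (if P ≤ MulAction.stabilizer G q.out then 1 else 0) := by
    intro q
    obtain ⟨k, hk⟩ := hP.card_orbit q.out
    rw [hk]
    rcases Nat.eq_zero_or_pos k with rfl | hk0
    · have hfix : P ≤ MulAction.stabilizer G q.out := by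
        intro r hr
        rw [pow_zero, Nat.card_eq_one_iff_unique] at hk
        have := hk.1
        exact congrArg Subtype.val (Subsingleton.elim
          (⟨(⟨r, hr⟩ : ↥P) • q.out, MulAction.mem_orbit _ _⟩ : MulAction.orbit ↥P q.out)
          ⟨q.out, MulAction.mem_orbit_self _⟩)
      rw [if_pos hfix, pow_zero]; omega
    · exact (Nat.le_self_pow hk0.ne' p).trans (Nat.le_add_right _ _)
  have h := Finset.sum_le_sum (s := Finset.univ) fun q (_ : q ∈ Finset.univ) => hpt q
  rw [Finset.sum_add_distrib, ← hn, ← Finset.mul_sum, Finset.sum_boole, Finset.sum_const,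
    Finset.card_univ, smul_eq_mul, Nat.cast_id] at h
  have hinj : (Finset.univ.filter fun q : Q => P ≤ MulAction.stabilizer G q.out).card ≤
      Nat.card {x : X // P ≤ MulAction.stabilizer G x} := by
    rw [← Nat.card_eq_finsetCard]
    exact Nat.card_le_card_of_injective
      (fun q => (⟨q.1.out, (Finset.mem_filter.mp q.2).2⟩ : {x : X // P ≤ MulAction.stabilizer G x}))
      fun a b hab => Subtype.ext (Quotient.out_injective (congrArg Subtype.val hab))
  rw [Nat.card_eq_fintype_card (α := Q), mul_comm]
  exact h.trans (Nat.add_le_add_left (Nat.mul_le_mul_left _ hinj) _)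

/-- `O^{p'}` of a group: the subgroup generated by all Sylow subgroups. -/
theorem core_top_normal : (core p (⊤ : Subgroup G)).Normal := by
  constructor
  intro n hn g
  have h := core_conj (p := p) g (⊤ : Subgroup G)
  have ht : MulAut.conj g • (⊤ : Subgroup G) = ⊤ := conj_eq_iff.mpr
    (Subgroup.le_normalizer (Subgroup.mem_top g))
  rw [ht] at h
  rw [h, Subgroup.mem_pointwise_smul_iff_inv_smul_mem]
  simpa [mul_assoc] using hn

theorem full_core_top : Full p (core p (⊤ : Subgroup G)) :=
  full_core ⟨Classical.arbitrary _, mem_syl.mpr le_top⟩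

/-- In a faithful transitive action `O^{p'}(G)` moves every point. -/
theorem core_top_moves [FaithfulSMul G X] [MulAction.IsPretransitive G X] (hpG : p ∣ Nat.card G)
    (x : X) : ¬ core p (⊤ : Subgroup G) ≤ MulAction.stabilizer G x := by
  intro h
  obtain ⟨P⟩ := (inferInstance : Nonempty (Sylow p G))
  apply P.ne_bot_of_dvd_card hpG
  rw [eq_bot_iff]
  intro r hr
  rw [Subgroup.mem_bot]
  refine eq_of_smul_eq_smul fun y : X => ?_
  obtain ⟨g, rfl⟩ := MulAction.exists_smul_eq G x y
  have hc : r ∈ core p (⊤ : Subgroup G) := by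
    have : P ∈ syl p (core p (⊤ : Subgroup G)) := by rw [syl_core]; exact mem_syl.mpr le_top
    exact mem_syl.mp this hr
  have h2 := h (core_top_normal.conj_mem _ hc g⁻¹)
  rw [MulAction.mem_stabilizer_iff, inv_inv, mul_smul, mul_smul] at h2
  rw [one_smul]
  exact inv_smul_eq_iff.mp h2

end SylowRatio
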