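import Mathlib

/-! A cycle of length `p` and the stabiliser of a point and of the rest of the cycle. -/

set_option autoImplicit false

namespace SylowRatio
open scoped Pointwise

variable {G X : Type*} [Group G] [Finite G] [MulAction G X] {p : ℕ} [Fact p.Prime]

/-- The rest of the cycle of `y` through `a`. -/
def cycleRest (p : ℕ) (y : G) (a : X) : Set X := (fun i => y ^ i • a) '' Set.Ico 1 p

theorem cycleRest_index {y : G} {a : X} (hy : IsPGroup p (Subgroup.zpowers y)) (hya : y • a ≠ a)
    (hyp : y ^ p • a = a) :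
    p ∣ (MulAction.stabilizer G a ⊓ MulAction.stabilizer G (cycleRest p y a)).index := by
  classical
  by_contra hnd
  have hp0 : p.Prime := Fact.out
  set S := MulAction.stabilizer G a ⊓ MulAction.stabilizer G (cycleRest p y a) with hS
  obtain ⟨R₀⟩ := (inferInstance : Nonempty (Sylow p ↥S))
  obtain ⟨R, hR⟩ := (R₀.isPGroup'.map S.subtype).exists_le_sylow
  have hRS : (R : Subgroup G) ≤ S := by
    have hc : Nat.card ↥((R₀ : Subgroup ↥S).map S.subtype) = Nat.card ↥(R : Subgroup G) := by
      rw [Subgroup.card_subtype, R₀.card_eq_multiplicity, R.card_eq_multiplicity,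
        ← S.card_mul_index, Nat.factorization_mul Nat.card_pos.ne' Subgroup.index_ne_zero_of_finite,
        Finsupp.add_apply, Nat.factorization_eq_zero_of_not_dvd hnd, add_zero]
    rw [← Subgroup.eq_of_le_of_card_ge hR hc.ge]
    exact Subgroup.map_subtype_le _
  have hmod : ∀ i : ℕ, y ^ i • a = y ^ (i % p) • a := by
    intro i
    conv_lhs => rw [← Nat.mod_add_div i p, pow_add, mul_smul]
    congr 1
    induction i / p with
    | zero => simp
    | succ k ih => rw [Nat.mul_succ, pow_add, mul_smul, hyp, ih]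
  have hfix : ∀ r ∈ (R : Subgroup G), ∀ i : ℕ, r • y ^ i • a = y ^ i • a := by
    intro r hr i
    rw [hmod i]
    have hra : r • a = a := (hRS hr).1
    rcases Nat.eq_zero_or_pos (i % p) with h | h
    · rw [h, pow_zero, one_smul, hra]
    have hmem : y ^ (i % p) • a ∈ cycleRest p y a := ⟨_, ⟨h, Nat.mod_lt _ hp0.pos⟩, rfl⟩
    have hinv : ∀ g ∈ (R : Subgroup G), ∀ x ∈ cycleRest p y a, g • x ∈ cycleRest p y a := by
      intro g hg x hx
      have h2 : g • cycleRest p y a = cycleRest p y a := (hRS hg).2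
      rw [← h2]; exact Set.smul_mem_smul_set hx
    have hfin : (cycleRest p y a).Finite := (Set.finite_Ico 1 p).image _
    have horb : MulAction.orbit ↥(R : Subgroup G) (y ^ (i % p) • a) ⊆ cycleRest p y a := by
      rintro _ ⟨g, rfl⟩; exact hinv g g.2 _ hmem
    have hlt : (MulAction.orbit ↥(R : Subgroup G) (y ^ (i % p) • a)).ncard < p := by
      have h1 := Set.ncard_le_ncard horb hfin
      have h2 := Set.ncard_image_le (f := fun i : ℕ => y ^ i • a) (Set.finite_Ico 1 p)
      have h3 : (Set.Ico 1 p).ncard = p - 1 := by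
        rw [← Finset.coe_Ico, Set.ncard_coe_finset, Nat.card_Ico]
      change (cycleRest p y a).ncard ≤ _ at h2
      have := hp0.pos
      omega
    have : Finite (MulAction.orbit ↥(R : Subgroup G) (y ^ (i % p) • a)) :=
      (hfin.subset horb).to_subtype
    obtain ⟨k, hk⟩ := R.isPGroup'.card_orbit (y ^ (i % p) • a)
    rw [Nat.card_coe_set_eq] at hk
    have hk0 : k = 0 := by
      by_contra hk0
      have : p ≤ p ^ k := Nat.le_self_pow hk0 p
      omega
    rw [hk0, pow_zero, Set.ncard_eq_one] at hk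
    obtain ⟨z, hz⟩ := hk
    have e1 : r • y ^ (i % p) • a ∈ ({z} : Set X) := hz ▸ ⟨⟨r, hr⟩, rfl⟩
    have e2 : y ^ (i % p) • a ∈ ({z} : Set X) := hz ▸ MulAction.mem_orbit_self _
    rw [Set.mem_singleton_iff] at e1 e2
    rw [e1, e2]
  set L := Subgroup.closure ({y} ∪ ((R : Subgroup G) : Set G)) with hL
  have hstab : ∀ g ∈ L, ∀ i : ℕ, ∃ i' : ℕ, g • y ^ i • a = y ^ i' • a := by
    intro g hg
    rw [← Subgroup.mem_toSubmonoid, hL, Subgroup.closure_toSubmonoid_of_finite] at hg
    induction hg using Submonoid.closure_induction with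
    | one => exact fun i => ⟨i, one_smul _ _⟩
    | mem g hg =>
      intro i
      rcases hg with rfl | hg
      · exact ⟨i + 1, by rw [pow_succ', mul_smul]⟩
      · exact ⟨i, hfix g hg i⟩
    | mul g h _ _ ihg ihh =>
      intro i
      obtain ⟨i₁, h₁⟩ := ihh i
      obtain ⟨i₂, h₂⟩ := ihg i₁
      exact ⟨i₂, by rw [mul_smul, h₁, h₂]⟩
  have hRL : (R : Subgroup G) ≤ L := fun g hg => Subgroup.subset_closure (Or.inr hg)
  have hyL : y ∈ L := Subgroup.subset_closure (Or.inl rfl)
  obtain ⟨Q, hQ⟩ := (hy.comap_of_injective L.subtype L.subtype_injective).exists_le_sylow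
  obtain ⟨g, hg⟩ := MulAction.exists_smul_eq ↥L (R.subtype hRL) Q
  have hyQ : (⟨y, hyL⟩ : ↥L) ∈ (Q : Subgroup ↥L) := hQ (Subgroup.mem_zpowers y)
  rw [← hg, Sylow.coe_subgroup_smul, Subgroup.mem_pointwise_smul_iff_inv_smul_mem,
    Sylow.coe_subtype, Subgroup.mem_subgroupOf] at hyQ
  have h3 : (g : G)⁻¹ * y * (g : G) ∈ (R : Subgroup G) := by simpa [mul_assoc] using hyQ
  obtain ⟨i', hi'⟩ := hstab _ (inv_mem g.2) 0
  rw [pow_zero, one_smul] at hi'
  have h4 := hfix _ h3 i'
  rw [← hi', mul_smul, mul_smul, smul_inv_smul, smul_left_cancel_iff] at h4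
  exact hya h4

end SylowRatio
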