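import Cfsg.Agent.SylowRatio.Cover

/-! The ratio of Sylow numbers of a proper subgroup. -/

set_option autoImplicit false

namespace SylowRatio
open scoped Pointwise Classical

variable {G : Type*} [Group G] [Finite G] {p : ℕ} [Fact p.Prime]

/-- Reduce to an element whose `p`-th power normalises. -/
theorem exists_step {M : Subgroup G} {y : G} (hy : ∃ k, y ^ (p ^ k) ∈ M) (hn : y ∉ M) :
    ∃ j : ℕ, y ^ (p ^ j) ∉ M ∧ (y ^ (p ^ j)) ^ p ∈ M := by
  obtain ⟨k, hk⟩ := hy
  induction k with
  | zero => simp at hk; exact absurd hk hn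
  | succ k ih =>
    by_cases h : y ^ (p ^ k) ∈ M
    · exact ih h
    · exact ⟨k, h, by rwa [← pow_mul, ← pow_succ]⟩

theorem bound_aux : ∀ (n : ℕ) (M : Subgroup G), Nat.card M = n → Full p M → Bound p M := by
  intro n
  induction n using Nat.strong_induction_on with
  | _ n ih =>
    intro M hn hM K₀ hK₀ hK₀M
    have hB : ∀ L, L < M → Full p L → Bound p L := fun L hL hLf =>
      ih _ (hn ▸ Set.ncard_lt_ncard (s := (L : Set G)) (t := (M : Set G))
        (SetLike.coe_ssubset_coe.mpr hL)) L rfl hLf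
    obtain ⟨K, hK₀K, hKmax⟩ := (Set.toFinite {L : Subgroup G | Full p L ∧ L < M}).exists_le_maximal
      (show K₀ ∈ {L : Subgroup G | Full p L ∧ L < M} from ⟨hK₀, hK₀M⟩)
    obtain ⟨⟨hK, hKM⟩, -⟩ := hKmax
    have hp : (2 : ℤ) ≤ p := by exact_mod_cast (Fact.out : p.Prime).two_le
    have hp0 : p.Prime := Fact.out
    have hmono : ((syl p K₀).card : ℤ) ≤ (syl p K).card := by
      exact_mod_cast Finset.card_le_card (syl_mono hK₀K)
    suffices h : 0 ≤ excess p M K by
      rw [excess, inf_eq_right.mpr hKM.le] at h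
      nlinarith
    by_contra hneg
    rw [not_le] at hneg
    obtain ⟨R, hR⟩ := hK.1
    have hRM : R ∈ syl p M := syl_mono hKM.le hR
    have hMK : ¬ M ≤ K := fun h => hKM.ne (le_antisymm hKM.le h)
    have hpos : (0 : ℤ) < (syl p M).card := by exact_mod_cast Finset.card_pos.mpr hM.1
    have hZneg : ∑ L ∈ orb M K, wt p R L < 0 := by
      by_contra h
      have h1 := sum_orb (K := K) hRM
      have h2 : (0 : ℤ) < (orb M K).card := by
        exact_mod_cast Finset.card_pos.mpr ⟨K, self_mem_orb M K⟩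
      nlinarith [mul_nonneg (not_lt.mp h) hpos.le, mul_neg_of_pos_of_neg h2 hneg]
    set W := (orb M K).erase K with hW
    have hWsum : ∑ L ∈ W, wt p R L + (-(p : ℤ)) = ∑ L ∈ orb M K, wt p R L := by
      rw [← wt_self hR]; exact Finset.sum_erase_add _ _ (self_mem_orb M K)
    have hWfull : ∀ L ∈ W, Full p L := fun L hL => by
      obtain ⟨g, _, rfl⟩ := mem_orb.mp (Finset.mem_erase.mp hL).2
      exact hK.conj g
    have hWnle : ∀ L ∈ W, ¬ K ≤ L := fun L hL h => by
      obtain ⟨hne, hZ⟩ := Finset.mem_erase.mp hL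
      obtain ⟨g, _, rfl⟩ := mem_orb.mp hZ
      exact hne ((hK.conj g).eq_of_le_of_card (syl_mono h) (card_syl_conj g K).le hK)
    have hWcl : ∀ L ∈ W, ∀ g ∈ K, MulAut.conj g • L ∈ W := fun L hL g hg => by
      obtain ⟨hne, hZ⟩ := Finset.mem_erase.mp hL
      refine Finset.mem_erase.mpr ⟨fun he => hne ?_, orb_closed (hKM.le hg) hZ⟩
      rw [← smul_left_cancel_iff (MulAut.conj g), he, conj_eq_iff.mpr (Subgroup.le_normalizer hg)]
    have hWnn := sum_nonneg hK (hB K hKM hK) hR W hWnle hWcl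
    -- the congruence forces `∑ W = 0`
    have hmod := card_modEq (R := R) (W := orb M K)
      (fun L hL => by obtain ⟨g, _, rfl⟩ := mem_orb.mp hL; exact hK.conj g)
      (fun L hL g hg => orb_closed (mem_syl.mp hRM hg) hL)
    obtain ⟨m, hm⟩ := (Int.natCast_modEq_iff.mpr hmod).dvd
    have hdvd : (p : ℤ) ∣ ∑ L ∈ orb M K, wt p R L := by
      refine ⟨((orb M K).card : ℤ) -
        2 * ((orb M K).filter fun L : Subgroup G => (R : Subgroup G) ≤ L).card + m, ?_⟩
      rw [sum_wt]; linear_combination hm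
    obtain ⟨d, hd⟩ := hdvd
    have hd0 : d < 0 := by nlinarith
    have hW0 : ∑ L ∈ W, wt p R L = 0 := by nlinarith
    -- an element moving `K` by a cycle of length `p`
    obtain ⟨S, hS, hSK⟩ : ∃ S ∈ syl p M, ¬ (S : Subgroup G) ≤
        Subgroup.normalizer (K : Set G) := by
      by_contra! h
      exact hMK (hM.le_of_full_le_normalizer hK
        (hM.2 ▸ iSup₂_le fun S hS => h S hS))
    obtain ⟨y₀, hy₀S, hy₀K⟩ := SetLike.not_le_iff_exists.mp hSK
    obtain ⟨k, hk⟩ := S.isPGroup' ⟨y₀, hy₀S⟩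
    obtain ⟨j, hj, hjp⟩ := exists_step (p := p) (M := Subgroup.normalizer (K : Set G))
      ⟨k, by rw [show y₀ ^ (p ^ k) = 1 from congrArg Subtype.val hk]; exact one_mem _⟩ hy₀K
    set y := y₀ ^ (p ^ j) with hy
    have hyS : y ∈ (S : Subgroup G) := Subgroup.pow_mem _ hy₀S _
    have hyM : y ∈ M := mem_syl.mp hS hyS
    have hnot : ∀ i : ℕ, 0 < i → i < p → y ^ i ∉ Subgroup.normalizer (K : Set G) := by
      intro i hi hip hmem
      apply hj
      have hcop : Nat.gcd i p = 1 :=
        Nat.Coprime.symm ((hp0.coprime_iff_not_dvd).mpr (Nat.not_dvd_of_pos_of_lt hi hip))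
      have := Subgroup.mul_mem _ (Subgroup.zpow_mem _ hmem (Nat.gcdA i p))
        (Subgroup.zpow_mem _ hjp (Nat.gcdB i p))
      rw [← zpow_natCast, ← zpow_natCast, ← zpow_mul, ← zpow_mul, ← zpow_add,
        ← Nat.gcd_eq_gcd_ab, hcop] at this
      simpa using this
    set T : Finset (Subgroup G) := (Finset.Ico 1 p).image fun i => MulAut.conj (y ^ i) • K with hT
    have hTW : ∀ c ∈ T, c ∈ W := by
      intro c hc
      obtain ⟨i, hi, rfl⟩ := Finset.mem_image.mp hc
      rw [Finset.mem_Ico] at hi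
      exact Finset.mem_erase.mpr ⟨fun he => hnot i hi.1 hi.2 (conj_eq_iff.mp he),
        mem_orb.mpr ⟨_, Subgroup.pow_mem _ hyM i, rfl⟩⟩
    have hTcard : T.card + 0 + 1 ≤ p := by
      have := Finset.card_image_le (s := Finset.Ico 1 p) (f := fun i => MulAut.conj (y ^ i) • K)
      simp only [Nat.card_Ico] at this
      have := hp0.two_le
      rw [hT]; omega
    obtain ⟨Q, hQ, hQT⟩ := cover T.card T K 0 rfl hK
      (fun L hL => hB L (lt_of_le_of_lt hL hKM)) hTcard (by
        intro c hc
        right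
        have hcW := hTW c hc
        have hsub : orb K c ⊆ W := fun L hL => by
          obtain ⟨g, hg, rfl⟩ := mem_orb.mp hL
          exact hWcl c hcW g hg
        refine inv_of_sum hK (hB K hKM hK) hR (hWfull c hcW) (hWnle c hcW)
          (by have := hp0.two_le; omega) rfl ?_
        have h2 : 0 ≤ ∑ L ∈ W \ orb K c, wt p R L := by
          refine sum_nonneg hK (hB K hKM hK) hR _ (fun L hL => hWnle L (Finset.mem_sdiff.mp hL).1)
            fun L hL g hg => ?_
          obtain ⟨hLW, hLo⟩ := Finset.mem_sdiff.mp hL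
          refine Finset.mem_sdiff.mpr ⟨hWcl L hLW g hg, fun hy => hLo ?_⟩
          have := orb_closed (inv_mem hg) hy
          rwa [conj_conj, inv_mul_cancel, map_one, one_smul] at this
        have := Finset.sum_sdiff (f := fun L => wt p R L) hsub
        push_cast
        linarith)
    -- all points of the cycle contain `Q`
    have hcyc : ∀ i : ℕ, (Q : Subgroup G) ≤ MulAut.conj (y ^ i) • K := by
      intro i
      have e : MulAut.conj (y ^ i) • K = MulAut.conj (y ^ (i % p)) • K := by
        conv_lhs => rw [← Nat.mod_add_div i p, pow_add, ← conj_conj, pow_mul,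
          conj_eq_iff.mpr (Subgroup.pow_mem _ hjp _)]
      rw [e]
      rcases Nat.eq_zero_or_pos (i % p) with h | h
      · rw [h]; simpa using mem_syl.mp hQ
      · exact hQT _ (Finset.mem_image.mpr
          ⟨i % p, Finset.mem_Ico.mpr ⟨h, Nat.mod_lt _ hp0.pos⟩, rfl⟩)
    set L := Subgroup.closure ({y} ∪ ((Q : Subgroup G) : Set G)) with hL
    have hstab : ∀ g ∈ L, ∀ i : ℕ, ∃ i' : ℕ,
        MulAut.conj g • MulAut.conj (y ^ i) • K = MulAut.conj (y ^ i') • K := by
      intro g hg
      rw [← Subgroup.mem_toSubmonoid, hL, Subgroup.closure_toSubmonoid_of_finite] at hg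
      induction hg using Submonoid.closure_induction with
      | one => exact fun i => ⟨i, by simp⟩
      | mem g hg =>
        intro i
        rcases hg with rfl | hg
        · exact ⟨i + 1, by rw [conj_conj, pow_succ']⟩
        · exact ⟨i, conj_eq_iff.mpr (Subgroup.le_normalizer (hcyc i hg))⟩
      | mul g h _ _ ihg ihh =>
        intro i
        obtain ⟨i₁, h₁⟩ := ihh i
        obtain ⟨i₂, h₂⟩ := ihg i₁
        exact ⟨i₂, by rw [← conj_conj, h₁, h₂]⟩
    have hQL : (Q : Subgroup G) ≤ L := fun g hg => Subgroup.subset_closure (Or.inr hg)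
    have hyL : y ∈ L := Subgroup.subset_closure (Or.inl rfl)
    have hpz : IsPGroup p (Subgroup.zpowers y) :=
      S.isPGroup'.to_le (by rw [Subgroup.zpowers_le]; exact hyS)
    obtain ⟨Q', hQ'⟩ := (hpz.comap_of_injective L.subtype L.subtype_injective).exists_le_sylow
    obtain ⟨g, hg⟩ := MulAction.exists_smul_eq ↥L (Q.subtype hQL) Q'
    have hyQ' : (⟨y, hyL⟩ : ↥L) ∈ (Q' : Subgroup ↥L) := hQ' (Subgroup.mem_zpowers y)
    rw [← hg, Sylow.coe_subgroup_smul, Subgroup.mem_pointwise_smul_iff_inv_smul_mem,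
      Sylow.coe_subtype, Subgroup.mem_subgroupOf] at hyQ'
    obtain ⟨i', hi'⟩ := hstab _ (inv_mem g.2) 0
    have h3 : (g : G)⁻¹ * y * (g : G) ∈ (Q : Subgroup G) := by simpa [mul_assoc] using hyQ'
    have h4 := hcyc i' h3
    rw [← hi', Subgroup.mem_pointwise_smul_iff_inv_smul_mem] at h4
    have hyK : y ∈ K := by simpa [mul_assoc] using h4
    exact hj (Subgroup.le_normalizer hyK)

theorem bound (M : Subgroup G) (hM : Full p M) : Bound p M := bound_aux _ M rfl hM

end SylowRatio
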