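import Mathlib

/-! Sylow subgroups contained in subgroups: conjugation bookkeeping and counting. -/

set_option autoImplicit false

namespace SylowRatio
open scoped Pointwise Classical

variable {G : Type*} [Group G] [Finite G] {p : ℕ} [Fact p.Prime]

variable (p) in
noncomputable def syl (K : Subgroup G) : Finset (Sylow p G) :=
  (Set.toFinite {R : Sylow p G | (R : Subgroup G) ≤ K}).toFinset

theorem mem_syl {K : Subgroup G} {R : Sylow p G} : R ∈ syl p K ↔ (R : Subgroup G) ≤ K := by
  simp [syl]

theorem syl_mono {K L : Subgroup G} (h : K ≤ L) : syl p K ⊆ syl p L := fun R hR =>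
  mem_syl.mpr ((mem_syl.mp hR).trans h)

theorem syl_inf (K L : Subgroup G) : syl p (K ⊓ L) = syl p K ∩ syl p L := by
  ext R; simp [mem_syl]

variable (p) in
noncomputable def core (K : Subgroup G) : Subgroup G := ⨆ R ∈ syl p K, (R : Subgroup G)

theorem core_le (K : Subgroup G) : core p K ≤ K := iSup₂_le fun _ hR => mem_syl.mp hR

theorem syl_core (K : Subgroup G) : syl p (core p K) = syl p K := by
  refine subset_antisymm (syl_mono (core_le K)) fun R hR => mem_syl.mpr ?_
  exact le_iSup₂ (f := fun (S : Sylow p G) (_ : S ∈ syl p K) => (S : Subgroup G)) R hR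

variable (p) in
def Full (K : Subgroup G) : Prop := (syl p K).Nonempty ∧ core p K = K

theorem full_core {K : Subgroup G} (h : (syl p K).Nonempty) : Full p (core p K) := by
  refine ⟨by rwa [syl_core], ?_⟩
  rw [core, syl_core]; rfl

theorem Full.le_of_syl {M K : Subgroup G} (hM : Full p M) (h : syl p M ⊆ syl p K) : M ≤ K := by
  rw [← hM.2]
  exact iSup₂_le fun R hR => mem_syl.mp (h hR)

theorem Full.eq_of_le_of_card {M K : Subgroup G} (hK : Full p K) (h : syl p M ⊆ syl p K)
    (hc : (syl p K).card ≤ (syl p M).card) (hM : Full p M) : K = M := by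
  have := Finset.eq_of_subset_of_card_le h hc
  exact le_antisymm (hK.le_of_syl this.ge) (hM.le_of_syl h)

theorem conj_le_iff {g : G} {A B : Subgroup G} :
    MulAut.conj g • A ≤ B ↔ A ≤ MulAut.conj g⁻¹ • B := by
  rw [← Subgroup.pointwise_smul_le_pointwise_smul_iff (a := MulAut.conj g⁻¹), smul_smul, ← map_mul,
    inv_mul_cancel, map_one, one_smul]

theorem conj_conj (g h : G) (A : Subgroup G) :
    MulAut.conj g • MulAut.conj h • A = MulAut.conj (g * h) • A := by
  rw [smul_smul, ← map_mul]

theorem mem_syl_conj {g : G} {K : Subgroup G} {R : Sylow p G} :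
    R ∈ syl p (MulAut.conj g • K) ↔ g⁻¹ • R ∈ syl p K := by
  rw [mem_syl, mem_syl, Sylow.coe_subgroup_smul, conj_le_iff, inv_inv]

theorem syl_conj (g : G) (K : Subgroup G) :
    syl p (MulAut.conj g • K) = (syl p K).image (g • ·) := by
  ext R
  rw [mem_syl_conj, Finset.mem_image]
  exact ⟨fun h => ⟨_, h, smul_inv_smul g R⟩, by rintro ⟨S, hS, rfl⟩; rwa [inv_smul_smul]⟩

theorem card_syl_conj (g : G) (K : Subgroup G) :
    (syl p (MulAut.conj g • K)).card = (syl p K).card := by
  rw [syl_conj, Finset.card_image_of_injective _ (MulAction.injective g)]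

theorem core_conj (g : G) (K : Subgroup G) :
    core p (MulAut.conj g • K) = MulAut.conj g • core p K := by
  refine le_antisymm (iSup₂_le fun R hR => ?_) ?_
  · have := mem_syl_conj.mp hR
    rw [← syl_core (p := p) K, mem_syl] at this
    rw [Sylow.coe_subgroup_smul, conj_le_iff, inv_inv] at this
    exact this
  · rw [conj_le_iff]
    refine iSup₂_le fun R hR => ?_
    rw [← conj_le_iff, ← Sylow.coe_subgroup_smul]
    apply mem_syl.mp
    rw [syl_core, mem_syl_conj, inv_smul_smul]
    exact hR

theorem Full.conj {K : Subgroup G} (h : Full p K) (g : G) : Full p (MulAut.conj g • K) := by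
  refine ⟨?_, by rw [core_conj, h.2]⟩
  rw [syl_conj]; exact h.1.image _

/-- Sylow subgroups inside a subgroup are conjugate by one of its elements. -/
theorem exists_conj {M : Subgroup G} {R R' : Sylow p G} (hR : R ∈ syl p M) (hR' : R' ∈ syl p M) :
    ∃ g ∈ M, g • R = R' := by
  obtain ⟨g, hg⟩ := MulAction.exists_smul_eq ↥M (R.subtype (mem_syl.mp hR))
    (R'.subtype (mem_syl.mp hR'))
  refine ⟨g, g.2, ?_⟩
  rw [Sylow.smul_subtype] at hg
  exact Sylow.subtype_injective hg

theorem conj_eq_iff {g : G} {K : Subgroup G} :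
    MulAut.conj g • K = K ↔ g ∈ Subgroup.normalizer (K : Set G) := by
  rw [Subgroup.mem_normalizer_iff, SetLike.ext_iff]
  simp only [Subgroup.mem_pointwise_smul_iff_inv_smul_mem, ← map_inv, MulAut.smul_def,
    MulAut.conj_apply, inv_inv]
  constructor
  · intro h x
    have := h (g * x * g⁻¹)
    simpa [mul_assoc] using this
  · intro h x
    have := h (g⁻¹ * x * g)
    simpa [mul_assoc] using this

theorem Full.le_of_le_normalizer {K : Subgroup G} (hK : Full p K) {R : Sylow p G}
    (hR : (R : Subgroup G) ≤ Subgroup.normalizer (K : Set G)) : (R : Subgroup G) ≤ K := by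
  obtain ⟨S, hS⟩ := hK.1
  obtain ⟨g, hg, rfl⟩ := exists_conj (R := S) (R' := R) (M := Subgroup.normalizer (K : Set G))
    (mem_syl.mpr ((mem_syl.mp hS).trans Subgroup.le_normalizer)) (mem_syl.mpr hR)
  rw [Sylow.coe_subgroup_smul, ← conj_eq_iff.mpr hg]
  exact Subgroup.pointwise_smul_le_pointwise_smul_iff.mpr (mem_syl.mp hS)

theorem Full.le_of_full_le_normalizer {M K : Subgroup G} (hM : Full p M) (hK : Full p K)
    (h : M ≤ Subgroup.normalizer (K : Set G)) : M ≤ K :=
  hM.le_of_syl fun _ hR => mem_syl.mpr (hK.le_of_le_normalizer ((mem_syl.mp hR).trans h))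

variable (p) in
noncomputable def orb (M K : Subgroup G) : Finset (Subgroup G) :=
  (Set.toFinite ((fun g => MulAut.conj g • K) '' (M : Set G))).toFinset

theorem mem_orb {M K L : Subgroup G} : L ∈ orb M K ↔ ∃ g ∈ M, MulAut.conj g • K = L := by
  simp [orb]

theorem self_mem_orb (M K : Subgroup G) : K ∈ orb M K :=
  mem_orb.mpr ⟨1, one_mem _, by simp⟩

theorem orb_closed {M K L : Subgroup G} {g : G} (hg : g ∈ M) (hL : L ∈ orb M K) :
    MulAut.conj g • L ∈ orb M K := by
  obtain ⟨h, hh, rfl⟩ := mem_orb.mp hL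
  exact mem_orb.mpr ⟨g * h, mul_mem hg hh, by rw [conj_conj]⟩

end SylowRatio
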