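import Cfsg.Agent.SylowRatio.Weight

/-! Covering few points by the fixed points of one Sylow subgroup. -/

set_option autoImplicit false

namespace SylowRatio
open scoped Pointwise Classical

variable {G : Type*} [Group G] [Finite G] {p : ℕ} [Fact p.Prime]

theorem core_congr {A B : Subgroup G} (h : syl p A = syl p B) : core p A = core p B := by
  rw [core, core, h]

variable (p) in
def Inv (M c : Subgroup G) (j : ℕ) : Prop :=
  (syl p (M ⊓ c)).Nonempty ∧
    ((orb M (core p (M ⊓ c))).card : ℤ) * excess p M (core p (M ⊓ c)) ≤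
      (p : ℤ) * j * (syl p M).card

theorem inv_of_sum {M : Subgroup G} (hM : Full p M) (hB : Bound p M) {R : Sylow p G}
    (hR : R ∈ syl p M) {K c : Subgroup G} (hK : Full p K) (hne : ¬ M ≤ K) {j : ℕ} (hj : j + 2 ≤ p)
    (hc : syl p (M ⊓ c) = syl p (M ⊓ K))
    (hsum : ∑ L ∈ orb M K, wt p R L ≤ (p : ℤ) * j) : Inv p M c j := by
  have hp : 2 ≤ p := (Fact.out : p.Prime).two_le
  have hN : (0 : ℤ) ≤ (syl p M).card := Nat.cast_nonneg _
  constructor
  · rw [hc]
    by_contra h0
    rw [Finset.not_nonempty_iff_eq_empty] at h0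
    have hf : ((orb M K).filter fun L : Subgroup G => (R : Subgroup G) ≤ L).card = 0 := by
      have := count_eq (K := K) hR
      rw [h0, Finset.card_empty, mul_zero] at this
      exact (Nat.mul_eq_zero.mp this).resolve_right (Finset.card_ne_zero.mpr hM.1)
    have hmod := card_modEq (R := R) (W := orb M K)
      (fun L hL => by obtain ⟨g, _, rfl⟩ := mem_orb.mp hL; exact hK.conj g)
      (fun L hL g hg => orb_closed (mem_syl.mp hR hg) hL)
    rw [hf] at hmod
    have h1 : p ≤ (orb M K).card :=
      Nat.le_of_dvd (Finset.card_pos.mpr ⟨K, self_mem_orb M K⟩) (Nat.modEq_zero_iff_dvd.mp hmod)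
    rw [sum_wt, hf] at hsum
    have h2 : (p : ℤ) ≤ (orb M K).card := by exact_mod_cast h1
    have h3 : (j : ℤ) + 2 ≤ p := by exact_mod_cast hj
    push_cast at hsum
    nlinarith [mul_le_mul_of_nonneg_left h2 (by linarith : (0 : ℤ) ≤ (p : ℤ) - 1)]
  · have hcore : core p (M ⊓ c) = core p (M ⊓ K) := core_congr hc
    rw [hcore]
    have hsub : orb M (core p (M ⊓ K)) ⊆ (orb M K).image fun L => core p (M ⊓ L) := by
      intro L hL
      obtain ⟨g, hg, rfl⟩ := mem_orb.mp hL
      refine Finset.mem_image.mpr ⟨MulAut.conj g • K, mem_orb.mpr ⟨g, hg, rfl⟩, ?_⟩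
      rw [← core_conj, Subgroup.smul_inf, conj_eq_iff.mpr (Subgroup.le_normalizer hg)]
    have hcard : ((orb M (core p (M ⊓ K))).card : ℤ) ≤ (orb M K).card := by
      exact_mod_cast (Finset.card_le_card hsub).trans Finset.card_image_le
    have hex : excess p M (core p (M ⊓ K)) = excess p M K := by
      rw [excess, excess, syl_inf M (core p (M ⊓ K)), syl_core, syl_inf M K,
        ← Finset.inter_assoc, Finset.inter_self]
    rw [hex]
    calc _ ≤ ((orb M K).card : ℤ) * excess p M K :=
          mul_le_mul_of_nonneg_right hcard (excess_nonneg hM hB hne)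
      _ = (∑ L ∈ orb M K, wt p R L) * (syl p M).card := (sum_orb hR).symm
      _ ≤ _ := mul_le_mul_of_nonneg_right hsum hN

theorem wt_self {M : Subgroup G} {R : Sylow p G} (hR : R ∈ syl p M) : wt p R M = -(p : ℤ) := by
  rw [wt, if_pos (mem_syl.mp hR)]; ring

theorem cover : ∀ (n : ℕ) (T : Finset (Subgroup G)) (M : Subgroup G) (i : ℕ), T.card = n →
    Full p M → (∀ L, L ≤ M → Full p L → Bound p L) → n + i + 1 ≤ p →
    (∀ c ∈ T, M ≤ c ∨ Inv p M c i) →
    ∃ R ∈ syl p M, ∀ c ∈ T, (R : Subgroup G) ≤ c := by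
  intro n
  induction n with
  | zero =>
    intro T M i hT hM _ _ _
    obtain ⟨R, hR⟩ := hM.1
    exact ⟨R, hR, fun c hc => by simp [Finset.card_eq_zero.mp hT] at hc⟩
  | succ n ih =>
    intro T M i hT hM hB hle hinv
    rcases (T.filter fun c => ¬ M ≤ c).eq_empty_or_nonempty with h0 | h0
    · obtain ⟨R, hR⟩ := hM.1
      refine ⟨R, hR, fun c hc => (mem_syl.mp hR).trans (not_not.mp fun h => ?_)⟩
      have : c ∈ T.filter fun c => ¬ M ≤ c := Finset.mem_filter.mpr ⟨hc, h⟩
      rw [h0] at this; exact Finset.notMem_empty c this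
    obtain ⟨t, ht, htmax⟩ := Finset.exists_max_image _ (fun c => (syl p (M ⊓ c)).card) h0
    obtain ⟨htT, htM⟩ := Finset.mem_filter.mp ht
    have ht' := ((hinv t htT).resolve_left htM).1
    set M' := core p (M ⊓ t) with hM'
    have hM'full : Full p M' := full_core ht'
    have hM'le : M' ≤ M := (core_le _).trans inf_le_left
    have hsM' : syl p M' = syl p (M ⊓ t) := syl_core _
    have hB' : ∀ L, L ≤ M' → Full p L → Bound p L := fun L h => hB L (h.trans hM'le)
    have hcardT : (T.erase t).card = n := by rw [Finset.card_erase_of_mem htT, hT]; rfl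
    obtain ⟨R, hR, hRT⟩ := ih (T.erase t) M' (i + 1) hcardT hM'full hB' (by omega) (by
      intro c hc
      obtain ⟨hct, hcT⟩ := Finset.mem_erase.mp hc
      by_cases hM'c : M' ≤ c
      · exact Or.inl hM'c
      right
      have hcM : ¬ M ≤ c := fun h => hM'c (hM'le.trans h)
      have hn : 1 ≤ n := by rw [← hcardT]; exact Finset.card_pos.mpr ⟨c, hc⟩
      obtain ⟨hne, hInv⟩ := (hinv c hcT).resolve_left hcM
      set K := core p (M ⊓ c) with hK
      have hKfull : Full p K := full_core hne
      have hKle : K ≤ c := (core_le _).trans inf_le_right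
      have hKcard : (syl p K).card ≤ (syl p M').card := by
        rw [hK, syl_core, hsM']; exact htmax c (Finset.mem_filter.mpr ⟨hcT, hcM⟩)
      have hMK : ¬ M ≤ K := fun h => hcM (h.trans hKle)
      obtain ⟨R', hR'⟩ := hM'full.1
      have hR'M : R' ∈ syl p M := syl_mono hM'le hR'
      have hpos : (0 : ℤ) < (syl p M).card := by exact_mod_cast Finset.card_pos.mpr hM.1
      have hZ : ∑ L ∈ orb M K, wt p R' L ≤ (p : ℤ) * i := by
        refine le_of_mul_le_mul_right ?_ hpos
        rw [sum_orb hR'M]; exact hInv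
      have hYZ : orb M' K ⊆ orb M K := fun L hL => by
        obtain ⟨g, hg, rfl⟩ := mem_orb.mp hL
        exact mem_orb.mpr ⟨g, hM'le hg, rfl⟩
      have hfix : ∀ g ∈ M', MulAut.conj g • M' = M' := fun g hg =>
        conj_eq_iff.mpr (Subgroup.le_normalizer hg)
      have hW : 0 ≤ ∑ L ∈ (orb M K \ orb M' K).erase M', wt p R' L := by
        refine sum_nonneg hM'full (hB M' hM'le hM'full) hR' _ ?_ ?_
        · intro L hL h
          obtain ⟨hLne, hL'⟩ := Finset.mem_erase.mp hL
          obtain ⟨g, _, rfl⟩ := mem_orb.mp (Finset.mem_sdiff.mp hL').1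
          exact hLne ((hKfull.conj g).eq_of_le_of_card (syl_mono h)
            (by rw [card_syl_conj]; exact hKcard) hM'full)
        · intro L hL g hg
          obtain ⟨hLne, hL'⟩ := Finset.mem_erase.mp hL
          obtain ⟨hLZ, hLY⟩ := Finset.mem_sdiff.mp hL'
          refine Finset.mem_erase.mpr ⟨fun he => hLne ?_, Finset.mem_sdiff.mpr
            ⟨orb_closed (hM'le hg) hLZ, fun hy => hLY ?_⟩⟩
          · rw [← smul_left_cancel_iff (MulAut.conj g), he, hfix g hg]
          · have := orb_closed (inv_mem hg) hy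
            rwa [conj_conj, inv_mul_cancel, map_one, one_smul] at this
      have hrest : -(p : ℤ) ≤ ∑ L ∈ orb M K \ orb M' K, wt p R' L := by
        by_cases h : M' ∈ orb M K \ orb M' K
        · rw [← Finset.sum_erase_add _ _ h, wt_self hR']; linarith
        · rw [Finset.erase_eq_of_notMem h] at hW
          linarith [Nat.cast_nonneg (α := ℤ) p]
      refine inv_of_sum hM'full (hB M' hM'le hM'full) hR' hKfull
        (fun h => hM'c (h.trans hKle)) (by omega) ?_ ?_
      · rw [syl_inf M' c, syl_inf M' K, show syl p K = syl p M ∩ syl p c from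
          (syl_core _).trans (syl_inf M c), ← Finset.inter_assoc,
          Finset.inter_eq_left.mpr (syl_mono hM'le)]
      · have := Finset.sum_sdiff (f := fun L => wt p R' L) hYZ
        push_cast
        linarith)
    refine ⟨R, syl_mono hM'le hR, fun c hc => ?_⟩
    rcases eq_or_ne c t with rfl | hct
    · exact (mem_syl.mp hR).trans ((core_le _).trans inf_le_right)
    · exact hRT c (Finset.mem_erase.mpr ⟨hct, hc⟩)

end SylowRatio
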