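import Cfsg.Agent.SylowRatio.Basic

/-! Weighted orbit sums. -/

set_option autoImplicit false

namespace SylowRatio
open scoped Pointwise Classical

variable {G : Type*} [Group G] [Finite G] {p : ℕ} [Fact p.Prime]

variable (p) in
/-- The bound for the full proper subgroups of `M`. -/
def Bound (M : Subgroup G) : Prop :=
  ∀ K : Subgroup G, Full p K → K < M →
    (2 * p - 1 : ℤ) * (syl p K).card ≤ ((p : ℤ) - 1) * (syl p M).card

variable (p) in
noncomputable def wt (R : Sylow p G) (K : Subgroup G) : ℤ :=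
  ((p : ℤ) - 1) - (2 * p - 1) * (if (R : Subgroup G) ≤ K then 1 else 0)

variable (p) in
noncomputable def excess (M K : Subgroup G) : ℤ :=
  ((p : ℤ) - 1) * (syl p M).card - (2 * p - 1) * (syl p (M ⊓ K)).card

theorem syl_inf_conj {M K : Subgroup G} {g : G} (hg : g ∈ M) :
    syl p (M ⊓ MulAut.conj g • K) = (syl p (M ⊓ K)).image (g • ·) := by
  conv_lhs => rw [← conj_eq_iff.mpr (Subgroup.le_normalizer hg), ← Subgroup.smul_inf]
  rw [syl_conj]

theorem count_eq {M K : Subgroup G} {R : Sylow p G} (hR : R ∈ syl p M) :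
    ((orb M K).filter fun L => (R : Subgroup G) ≤ L).card * (syl p M).card =
      (orb M K).card * (syl p (M ⊓ K)).card := by
  have h1 := Finset.sum_card_bipartiteAbove_eq_sum_card_bipartiteBelow
    (r := fun (L : Subgroup G) (S : Sylow p G) => (S : Subgroup G) ≤ L)
    (s := orb M K) (t := syl p M)
  have hA : ∀ L ∈ orb M K, ((syl p M).filter fun S : Sylow p G => (S : Subgroup G) ≤ L).card =
      (syl p (M ⊓ K)).card := by
    intro L hL
    obtain ⟨g, hg, rfl⟩ := mem_orb.mp hL
    have : (syl p M).filter (fun S : Sylow p G => (S : Subgroup G) ≤ MulAut.conj g • K) =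
        syl p (M ⊓ MulAut.conj g • K) := by
      ext S; simp [mem_syl]
    rw [this, syl_inf_conj hg, Finset.card_image_of_injective _ (MulAction.injective g)]
  have hB : ∀ S ∈ syl p M, ((orb M K).filter fun L => (S : Subgroup G) ≤ L).card =
      ((orb M K).filter fun L => (R : Subgroup G) ≤ L).card := by
    intro S hS
    obtain ⟨g, hg, rfl⟩ := exists_conj hR hS
    have : ((orb M K).filter fun L => ((g • R : Sylow p G) : Subgroup G) ≤ L) =
        ((orb M K).filter fun L => (R : Subgroup G) ≤ L).image (MulAut.conj g • ·) := by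
      ext L
      rw [Finset.mem_filter, Finset.mem_image]
      constructor
      · rintro ⟨hL, h⟩
        refine ⟨MulAut.conj g⁻¹ • L, Finset.mem_filter.mpr ⟨orb_closed (inv_mem hg) hL, ?_⟩, ?_⟩
        · rwa [Sylow.coe_subgroup_smul, conj_le_iff] at h
        · rw [conj_conj, mul_inv_cancel, map_one, one_smul]
      · rintro ⟨L', h', rfl⟩
        obtain ⟨hL', h''⟩ := Finset.mem_filter.mp h'
        refine ⟨orb_closed hg hL', ?_⟩
        rw [Sylow.coe_subgroup_smul]
        exact Subgroup.pointwise_smul_le_pointwise_smul_iff.mpr h''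
    rw [this, Finset.card_image_of_injective _ (MulAction.injective _)]
  simp only [Finset.bipartiteAbove, Finset.bipartiteBelow] at h1
  rw [Finset.sum_congr rfl hA, Finset.sum_congr rfl hB] at h1
  simp only [Finset.sum_const, smul_eq_mul] at h1
  rw [h1]; ring

theorem sum_wt (R : Sylow p G) (W : Finset (Subgroup G)) :
    ∑ L ∈ W, wt p R L = ((p : ℤ) - 1) * W.card -
      (2 * p - 1) * (W.filter fun L => (R : Subgroup G) ≤ L).card := by
  simp only [wt]
  rw [Finset.sum_sub_distrib, ← Finset.mul_sum, Finset.sum_boole, Finset.sum_const, nsmul_eq_mul]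
  ring

theorem sum_orb {M K : Subgroup G} {R : Sylow p G} (hR : R ∈ syl p M) :
    (∑ L ∈ orb M K, wt p R L) * (syl p M).card = (orb M K).card * excess p M K := by
  have h : (((orb M K).filter fun L => (R : Subgroup G) ≤ L).card : ℤ) * (syl p M).card =
      (orb M K).card * (syl p (M ⊓ K)).card := by exact_mod_cast count_eq hR
  rw [sum_wt, excess]
  linear_combination (-(2 * (p : ℤ) - 1)) * h

theorem excess_nonneg {M : Subgroup G} (hM : Full p M) (hB : Bound p M) {K : Subgroup G}
    (h : ¬ M ≤ K) : 0 ≤ excess p M K := by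
  have hp : (2 : ℤ) ≤ p := by exact_mod_cast (Fact.out : p.Prime).two_le
  rw [excess]
  rcases (syl p (M ⊓ K)).eq_empty_or_nonempty with he | he
  · rw [he]; simp only [Finset.card_empty, Nat.cast_zero, mul_zero, sub_zero]
    exact mul_nonneg (by linarith) (Nat.cast_nonneg _)
  · have hle : core p (M ⊓ K) ≤ M := (core_le _).trans inf_le_left
    have hne : core p (M ⊓ K) ≠ M := fun he' => h (by
      rw [← he']; exact (core_le _).trans inf_le_right)
    have := hB _ (full_core he) (lt_of_le_of_ne hle hne)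
    rw [syl_core] at this
    linarith

theorem sum_nonneg {M : Subgroup G} (hM : Full p M) (hB : Bound p M) {R : Sylow p G}
    (hR : R ∈ syl p M) : ∀ W : Finset (Subgroup G), (∀ K ∈ W, ¬ M ≤ K) →
    (∀ K ∈ W, ∀ g ∈ M, MulAut.conj g • K ∈ W) → 0 ≤ ∑ L ∈ W, wt p R L := by
  intro W
  induction W using Finset.strongInduction with
  | H W ih =>
    intro hne hcl
    rcases W.eq_empty_or_nonempty with rfl | ⟨K, hK⟩
    · simp
    have hsub : orb M K ⊆ W := fun L hL => by
      obtain ⟨g, hg, rfl⟩ := mem_orb.mp hL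
      exact hcl K hK g hg
    have hpos : (0 : ℤ) < (syl p M).card := by exact_mod_cast Finset.card_pos.mpr hM.1
    have h1 : 0 ≤ ∑ L ∈ orb M K, wt p R L := by
      refine nonneg_of_mul_nonneg_left ?_ hpos
      rw [sum_orb hR]
      exact mul_nonneg (Nat.cast_nonneg _) (excess_nonneg hM hB (hne K hK))
    have h2 : 0 ≤ ∑ L ∈ W \ orb M K, wt p R L := by
      refine ih _ (Finset.sdiff_ssubset hsub ⟨K, self_mem_orb M K⟩)
        (fun L hL => hne L (Finset.mem_sdiff.mp hL).1) fun L hL g hg => ?_
      obtain ⟨hLW, hLo⟩ := Finset.mem_sdiff.mp hL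
      refine Finset.mem_sdiff.mpr ⟨hcl L hLW g hg, fun hc => hLo ?_⟩
      have := orb_closed (inv_mem hg) hc
      rwa [conj_conj, inv_mul_cancel, map_one, one_smul] at this
    rw [← Finset.sum_sdiff hsub]; linarith

/-- Congruence for a finite stable set of full subgroups. -/
theorem card_modEq {R : Sylow p G} {W : Finset (Subgroup G)} (hf : ∀ K ∈ W, Full p K)
    (hcl : ∀ K ∈ W, ∀ g ∈ (R : Subgroup G), MulAut.conj g • K ∈ W) :
    W.card ≡ (W.filter fun L => (R : Subgroup G) ≤ L).card [MOD p] := by
  letI : MulAction ↥(R : Subgroup G) ↥W :=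
    { smul := fun g K => ⟨MulAut.conj (g : G) • (K : Subgroup G), hcl K K.2 g g.2⟩
      one_smul := fun K => Subtype.ext (show MulAut.conj ((1 : ↥(R : Subgroup G)) : G) • _ = _ by
        simp)
      mul_smul := fun g h K => Subtype.ext (show MulAut.conj ((g * h : ↥(R : Subgroup G)) : G) • _
          = MulAut.conj (g : G) • MulAut.conj (h : G) • _ by
        rw [conj_conj]; rfl) }
  have h := R.isPGroup'.card_modEq_card_fixedPoints (↥W)
  have e : MulAction.fixedPoints ↥(R : Subgroup G) ↥W =
      {K : ↥W | (R : Subgroup G) ≤ (K : Subgroup G)} := by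
    ext K
    rw [MulAction.mem_fixedPoints]
    constructor
    · intro hK
      refine (hf _ K.2).le_of_le_normalizer fun g hg => conj_eq_iff.mp ?_
      exact congrArg Subtype.val (hK ⟨g, hg⟩)
    · intro hK g
      exact Subtype.ext (conj_eq_iff.mpr (Subgroup.le_normalizer (hK g.2)))
  rw [e] at h
  have e2 : Nat.card {K : ↥W | (R : Subgroup G) ≤ (K : Subgroup G)} =
      (W.filter fun L => (R : Subgroup G) ≤ L).card := by
    rw [← Nat.card_eq_finsetCard]
    exact Nat.card_congr
      { toFun := fun K => ⟨K.1.1, Finset.mem_filter.mpr ⟨K.1.2, K.2⟩⟩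
        invFun := fun K => ⟨⟨K.1, (Finset.mem_filter.mp K.2).1⟩, (Finset.mem_filter.mp K.2).2⟩
        left_inv := fun K => rfl
        right_inv := fun K => rfl }
  rwa [e2, Nat.card_eq_finsetCard] at h

end SylowRatio
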